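import Mathlib
import Cfsg.Agent.Lib.Helper98.A8.Pkgs

set_option autoImplicit false

/-!
# Package [INV] for S2553: a conjugation-invariant set of commuting involutions gives a
nontrivial `2`-core
-/

namespace Cfsg.Agent.Lib.Helper4.A8

open Cfsg

/-- a normal `p`-subgroup which is not trivial -/
theorem pCore_ne_bot_of_normal {G : Type*} [Group G] (p : ℕ) (N : Subgroup G) [N.Normal]
    (hN : IsPGroup p N) (hN1 : N ≠ ⊥) : Cfsg.pCore p G ≠ ⊥ := by
  intro h
  apply hN1
  have hle : N ≤ Cfsg.pCore p G := le_sSup ⟨inferInstance, hN⟩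
  rw [h] at hle
  exact le_bot_iff.mp hle

/-- the group generated by commuting elements is commutative -/
theorem closure_comm {G : Type*} [Group G] (T : Set G)
    (hcomm : ∀ s ∈ T, ∀ t ∈ T, s * t = t * s) :
    ∀ x ∈ Subgroup.closure T, ∀ y ∈ Subgroup.closure T, x * y = y * x := by
  have h1 : Subgroup.closure T ≤ Subgroup.centralizer T := by
    rw [Subgroup.closure_le]
    intro s hs
    rw [SetLike.mem_coe, Subgroup.mem_centralizer_iff]
    intro t ht
    exact hcomm t ht s hs
  have h2 : Subgroup.closure T ≤ Subgroup.centralizer (Subgroup.closure T : Set G) := by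
    rw [Subgroup.closure_le]
    intro t ht
    rw [SetLike.mem_coe, Subgroup.mem_centralizer_iff]
    intro x hx
    have := h1 hx
    rw [Subgroup.mem_centralizer_iff] at this
    exact (this t ht).symm
  intro x hx y hy
  have := h2 hx
  rw [Subgroup.mem_centralizer_iff] at this
  exact (this y hy).symm

/-- the group generated by commuting involutions consists of involutions -/
theorem closure_invol {G : Type*} [Group G] (T : Set G)
    (hcomm : ∀ s ∈ T, ∀ t ∈ T, s * t = t * s) (hinv : ∀ t ∈ T, t * t = 1) :
    ∀ x ∈ Subgroup.closure T, x * x = 1 := by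
  have hc := closure_comm T hcomm
  intro x hx
  induction hx using Subgroup.closure_induction with
  | mem t ht => exact hinv t ht
  | one => simp
  | mul a b ha hb iha ihb =>
    have hab := hc a ha b hb
    calc a * b * (a * b) = a * (b * a) * b := by group
      _ = a * (a * b) * b := by rw [hab]
      _ = (a * a) * (b * b) := by group
      _ = 1 := by rw [iha, ihb, one_mul]
  | inv a ha iha =>
    have : a⁻¹ * a⁻¹ = (a * a)⁻¹ := by group
    rw [this, iha, inv_one]

/-- conjugation by `g` maps `closure T` into itself as soon as it maps `T` into itself -/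
theorem conj_closure_mem {G : Type*} [Group G] (T : Set G) (g : G)
    (hg : ∀ t ∈ T, g * t * g⁻¹ ∈ T) (x : G) (hx : x ∈ Subgroup.closure T) :
    g * x * g⁻¹ ∈ Subgroup.closure T := by
  induction hx using Subgroup.closure_induction with
  | mem t ht => exact Subgroup.subset_closure (hg t ht)
  | one => simp
  | mul a b ha hb iha ihb =>
    have : g * (a * b) * g⁻¹ = (g * a * g⁻¹) * (g * b * g⁻¹) := by group
    rw [this]
    exact Subgroup.mul_mem _ iha ihb
  | inv a ha iha =>
    have : g * a⁻¹ * g⁻¹ = (g * a * g⁻¹)⁻¹ := by group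
    rw [this]
    exact Subgroup.inv_mem _ iha

/-- the general form of [INV] -/
theorem pCore_two_ne_bot_of_invol {G : Type*} [Group G] (S T : Set G)
    (hT1 : ∃ t ∈ T, t ≠ 1) (hTS : ∀ t ∈ T, t ∈ Subgroup.closure S) (hinv : ∀ t ∈ T, t * t = 1)
    (hcomm : ∀ s ∈ T, ∀ t ∈ T, s * t = t * s)
    (hconj : ∀ g ∈ S, ∀ t ∈ T, g * t * g⁻¹ ∈ T ∧ g⁻¹ * t * g ∈ T) :
    Cfsg.pCore 2 ↥(Subgroup.closure S) ≠ ⊥ := by
  have hle : Subgroup.closure T ≤ Subgroup.closure S := by
    rw [Subgroup.closure_le]
    exact fun t ht => hTS t ht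
  have hN : Subgroup.closure S ≤ Subgroup.normalizer ((Subgroup.closure T : Subgroup G) : Set G) := by
    rw [Subgroup.closure_le]
    intro g hg
    rw [SetLike.mem_coe, Subgroup.mem_normalizer_iff]
    intro z
    constructor
    · intro hz
      exact conj_closure_mem T g (fun t ht => (hconj g hg t ht).1) z hz
    · intro hz
      have h1 := conj_closure_mem T g⁻¹ (fun t ht => by simpa using (hconj g hg t ht).2)
        (g * z * g⁻¹) hz
      have h2 : g⁻¹ * (g * z * g⁻¹) * g⁻¹⁻¹ = z := by group
      rwa [h2] at h1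
  have hnorm : ((Subgroup.closure T).subgroupOf (Subgroup.closure S)).Normal := by
    constructor
    intro n hn g
    rw [Subgroup.mem_subgroupOf] at hn ⊢
    have h1 := hN g.2
    rw [Subgroup.mem_normalizer_iff] at h1
    have := (h1 (n : G)).mp hn
    simpa using this
  have hinv' := closure_invol T hcomm hinv
  apply pCore_ne_bot_of_normal 2 ((Subgroup.closure T).subgroupOf (Subgroup.closure S))
  · intro x
    refine ⟨1, ?_⟩
    have hx : (x : Subgroup.closure S) ∈ (Subgroup.closure T).subgroupOf (Subgroup.closure S) :=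
      x.2
    rw [Subgroup.mem_subgroupOf] at hx
    have h1 := hinv' _ hx
    apply Subtype.ext
    apply Subtype.ext
    simp only [pow_one, pow_two, Subgroup.coe_mul, Subgroup.coe_one]
    exact h1
  · intro h
    obtain ⟨t, ht, ht1⟩ := hT1
    have hmem : (⟨t, hTS t ht⟩ : Subgroup.closure S) ∈
        (Subgroup.closure T).subgroupOf (Subgroup.closure S) := by
      rw [Subgroup.mem_subgroupOf]
      exact Subgroup.subset_closure ht
    rw [h, Subgroup.mem_bot] at hmem
    apply ht1
    have := congrArg Subtype.val hmem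
    simpa using this

/-- Package [INV]. -/
theorem pkgInv : Cfsg.Agent.Lib.Helper98.A8.PkgInv := by
  intro S T hT1 hTS hinv hcomm hconj
  exact pCore_two_ne_bot_of_invol S T hT1 hTS hinv hcomm hconj

end Cfsg.Agent.Lib.Helper4.A8
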