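import Mathlib
import Cfsg.Agent.Lib.Helper98.A8.Pkgs

set_option autoImplicit false

/-!
# Package [ODD] and [ODDG] for S2553: a normal subgroup of odd prime order gives a nontrivial
odd core
-/

namespace Cfsg.Agent.Lib.Helper4.A8

open Cfsg

/-- a normal subgroup of order prime to `p` which is not trivial -/
theorem pPrimeCore_ne_bot_of_normal {G : Type*} [Group G] (p : ℕ) (N : Subgroup G) [N.Normal]
    (hN : (Nat.card N).Coprime p) (hN1 : N ≠ ⊥) : Cfsg.pPrimeCore p G ≠ ⊥ := by
  intro h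
  apply hN1
  have hle : N ≤ Cfsg.pPrimeCore p G := le_sSup ⟨inferInstance, hN⟩
  rw [h] at hle
  exact le_bot_iff.mp hle

/-- conjugation by `h` maps `zpowers c` into itself as soon as it does so for `c` -/
theorem conj_zpowers_mem {G : Type*} [Group G] (c h : G)
    (hc : h * c * h⁻¹ ∈ Subgroup.zpowers c) (z : G) (hz : z ∈ Subgroup.zpowers c) :
    h * z * h⁻¹ ∈ Subgroup.zpowers c := by
  obtain ⟨k, rfl⟩ := Subgroup.mem_zpowers_iff.mp hz
  have : h * c ^ k * h⁻¹ = (h * c * h⁻¹) ^ k := by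
    have h1 := map_zpow (MulAut.conj h) c k
    simpa [MulAut.conj_apply] using h1
  rw [this]
  exact Subgroup.zpow_mem _ hc k

/-- the general form of [ODD] -/
theorem pPrimeCore_two_ne_bot_of_zpowers {G : Type*} [Group G] (H : Subgroup G) (c : G) (p : ℕ)
    (hp : p.Prime) (hp2 : p ≠ 2) (hc : orderOf c = p) (hcH : c ∈ H)
    (hn : ∀ h ∈ H, h * c * h⁻¹ ∈ Subgroup.zpowers c) : Cfsg.pPrimeCore 2 ↥H ≠ ⊥ := by
  have hle : Subgroup.zpowers c ≤ H := by
    rw [Subgroup.zpowers_le]
    exact hcH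
  have hnorm : ((Subgroup.zpowers c).subgroupOf H).Normal := by
    constructor
    intro n hn' g
    rw [Subgroup.mem_subgroupOf] at hn' ⊢
    have := conj_zpowers_mem c (g : G) (hn (g : G) g.2) (n : G) hn'
    simpa using this
  have hcard : Nat.card ((Subgroup.zpowers c).subgroupOf H) = p := by
    rw [Nat.card_congr (Subgroup.subgroupOfEquivOfLe hle).toEquiv, Nat.card_zpowers, hc]
  apply pPrimeCore_ne_bot_of_normal 2 ((Subgroup.zpowers c).subgroupOf H)
  · rw [hcard]
    exact (Nat.coprime_primes hp Nat.prime_two).mpr hp2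
  · intro h
    rw [h, Subgroup.card_bot] at hcard
    exact hp.one_lt.ne' hcard.symm

/-- Package [ODD]. -/
theorem pkgOdd : Cfsg.Agent.Lib.Helper98.A8.PkgOdd := by
  intro H c p hp hp2 hc hcH hn
  exact pPrimeCore_two_ne_bot_of_zpowers H c p hp hp2 hc hcH hn

/-- Package [ODDG]. -/
theorem pkgOddG : Cfsg.Agent.Lib.Helper98.A8.PkgOddG := by
  intro S c p hp hp2 hc hcH hn
  apply pPrimeCore_two_ne_bot_of_zpowers (Subgroup.closure S) c p hp hp2 hc hcH
  have hle : Subgroup.closure S ≤ Subgroup.normalizer ((Subgroup.zpowers c : Subgroup _) : Set _) := by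
    rw [Subgroup.closure_le]
    intro g hg
    rw [SetLike.mem_coe, Subgroup.mem_normalizer_iff]
    intro z
    constructor
    · intro hz
      exact conj_zpowers_mem c g (hn g hg).1 z hz
    · intro hz
      have h1 := conj_zpowers_mem c g⁻¹ (by simpa using (hn g hg).2) (g * z * g⁻¹) hz
      have h2 : g⁻¹ * (g * z * g⁻¹) * g⁻¹⁻¹ = z := by group
      rwa [h2] at h1
  intro h hh
  have := hle hh
  rw [Subgroup.mem_normalizer_iff] at this
  exact (this c).mp (Subgroup.mem_zpowers c)

end Cfsg.Agent.Lib.Helper4.A8
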