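import Mathlib
import Cfsg.Agent.Lib.Helper4.A8.Odd
import Cfsg.Agent.Lib.Helper4.A8.Inv

set_option autoImplicit false

/-!
# Package [SOLV] for S2553: a nontrivial finite solvable group has a nontrivial `2`-core or a
nontrivial odd core
-/

namespace Cfsg.Agent.Lib.Helper4.A8

open Cfsg

/-- a nontrivial solvable group has a nontrivial abelian normal subgroup -/
theorem exists_abelian_normal {G : Type*} [Group G] [Group.IsSolvable G] [Nontrivial G] :
    ∃ A : Subgroup G, A.Normal ∧ A ≠ ⊥ ∧ ∀ a ∈ A, ∀ b ∈ A, a * b = b * a := by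
  classical
  have hsol : ∃ n : ℕ, derivedSeries G n = ⊥ := Group.IsSolvable.solvable
  have hn := Nat.find_spec hsol
  have hmin := fun m => Nat.find_min hsol (m := m)
  obtain ⟨n, hndef⟩ : ∃ n, n = Nat.find hsol := ⟨_, rfl⟩
  rw [← hndef] at hn hmin
  have hn0 : n ≠ 0 := by
    rintro rfl
    rw [derivedSeries_zero] at hn
    exact top_ne_bot hn
  obtain ⟨m, rfl⟩ := Nat.exists_eq_succ_of_ne_zero hn0
  refine ⟨derivedSeries G m, inferInstance, hmin m (Nat.lt_succ_self m), ?_⟩
  intro a ha b hb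
  have h1 : a * b * a⁻¹ * b⁻¹ ∈ derivedSeries G (m + 1) := by
    rw [derivedSeries_succ]
    have := Subgroup.commutator_mem_commutator ha hb
    rwa [commutatorElement_def] at this
  rw [hn, Subgroup.mem_bot] at h1
  calc a * b = a * b * a⁻¹ * b⁻¹ * b * a := by group
    _ = b * a := by rw [h1, one_mul]

/-- the involutions of an abelian normal subgroup -/
def invSub {G : Type*} [Group G] (A : Subgroup G)
    (hA : ∀ a ∈ A, ∀ b ∈ A, a * b = b * a) : Subgroup G where
  carrier := {a | a ∈ A ∧ a * a = 1}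
  one_mem' := ⟨A.one_mem, by simp⟩
  mul_mem' := by
    rintro a b ⟨ha, ha2⟩ ⟨hb, hb2⟩
    refine ⟨A.mul_mem ha hb, ?_⟩
    have hab := hA a ha b hb
    calc a * b * (a * b) = a * (b * a) * b := by group
      _ = a * (a * b) * b := by rw [hab]
      _ = (a * a) * (b * b) := by group
      _ = 1 := by rw [ha2, hb2, one_mul]
  inv_mem' := by
    rintro a ⟨ha, ha2⟩
    refine ⟨A.inv_mem ha, ?_⟩
    have : a⁻¹ * a⁻¹ = (a * a)⁻¹ := by group
    rw [this, ha2, inv_one]

theorem mem_invSub {G : Type*} [Group G] (A : Subgroup G)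
    (hA : ∀ a ∈ A, ∀ b ∈ A, a * b = b * a) (x : G) :
    x ∈ invSub A hA ↔ x ∈ A ∧ x * x = 1 := Iff.rfl

/-- the general form of [SOLV] -/
theorem core_ne_bot_of_solvable (G : Type*) [Group G] [Finite G] [Group.IsSolvable G]
    [Nontrivial G] : Cfsg.pCore 2 G ≠ ⊥ ∨ Cfsg.pPrimeCore 2 G ≠ ⊥ := by
  classical
  obtain ⟨A, hAn, hA1, hAc⟩ := exists_abelian_normal (G := G)
  by_cases h2 : 2 ∣ Nat.card A
  · left
    have : Fact (Nat.Prime 2) := ⟨Nat.prime_two⟩
    obtain ⟨t, ht⟩ := exists_prime_orderOf_dvd_card' (G := A) 2 h2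
    have ht2 : (t : G) * (t : G) = 1 := by
      have h1 : orderOf (t : G) = 2 := by rw [Subgroup.orderOf_coe]; exact ht
      rw [← pow_two, ← h1]
      exact pow_orderOf_eq_one _
    have ht1 : (t : G) ≠ 1 := by
      intro h
      have h1 : orderOf (t : G) = 2 := by rw [Subgroup.orderOf_coe]; exact ht
      rw [h, orderOf_one] at h1
      omega
    have hnorm : (invSub A hAc).Normal := by
      constructor
      intro n hn g
      rw [mem_invSub] at hn ⊢
      refine ⟨hAn.conj_mem n hn.1 g, ?_⟩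
      have : g * n * g⁻¹ * (g * n * g⁻¹) = g * (n * n) * g⁻¹ := by group
      rw [this, hn.2]
      group
    apply pCore_ne_bot_of_normal 2 (invSub A hAc)
    · intro x
      refine ⟨1, ?_⟩
      have hx := x.2
      rw [mem_invSub] at hx
      apply Subtype.ext
      simp only [pow_one, pow_two, Subgroup.coe_mul, Subgroup.coe_one]
      exact hx.2
    · intro h
      have hmem : (t : G) ∈ invSub A hAc := by
        rw [mem_invSub]
        exact ⟨t.2, ht2⟩
      rw [h, Subgroup.mem_bot] at hmem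
      exact ht1 hmem
  · right
    apply pPrimeCore_ne_bot_of_normal 2 A _ hA1
    exact (Nat.coprime_comm.mp ((Nat.Prime.coprime_iff_not_dvd Nat.prime_two).mpr h2))

/-- Package [SOLV]. -/
theorem pkgSolv : Cfsg.Agent.Lib.Helper98.A8.PkgSolv := by
  intro G _ _ _ _
  exact core_ne_bot_of_solvable G

end Cfsg.Agent.Lib.Helper4.A8
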